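import Mathlib

/-!
# HUP project (S3361, Huppert: solvable groups regular on the non-zero vectors)

Interface file: definitions and one `Prop` per package.
-/

set_option autoImplicit false

universe u v

namespace Cfsg.Agent.Lib.Helper49.HUP

/-- `X` has a normal subgroup of index 2 -/
def HasIdx2N (X : Type v) [Group X] : Prop := ∃ N : Subgroup X, N.Normal ∧ N.index = 2

/-- no nontrivial normal subgroup of odd order -/
def OddCoreFree (X : Type v) [Group X] : Prop :=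
  ∀ N : Subgroup X, N.Normal → Odd (Nat.card N) → N = ⊥

/-- the hypotheses of S3361 on the representation -/
def IsReg {q : ℕ} [Fact q.Prime] {V : Type u} [AddCommGroup V] [Module (ZMod q) V]
    {G : Type v} [Group G] (ρ : G →* (V ≃ₗ[ZMod q] V)) : Prop :=
  Function.Injective ρ ∧ (∀ v w : V, v ≠ 0 → w ≠ 0 → ∃ g : G, ρ g v = w) ∧
    (∀ v : V, v ≠ 0 → ∀ g : G, ρ g v = v → g = 1)

/-- the subgroup `A` acts irreducibly -/
def Irr {q : ℕ} [Fact q.Prime] {V : Type u} [AddCommGroup V] [Module (ZMod q) V]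
    {G : Type v} [Group G] (ρ : G →* (V ≃ₗ[ZMod q] V)) (A : Subgroup G) : Prop :=
  ∀ W : Submodule (ZMod q) V, (∀ a ∈ A, ∀ v ∈ W, ρ a v ∈ W) → W = ⊥ ∨ W = ⊤

/-- semilinear over a field living in the universe of `V` -/
def SemiU {q : ℕ} [Fact q.Prime] {V : Type u} [AddCommGroup V] [Module (ZMod q) V]
    {G : Type v} [Group G] (ρ : G →* (V ≃ₗ[ZMod q] V)) : Prop :=
  ∃ (F₀ : Type u) (_ : Field F₀) (_ : Finite F₀) (e : V ≃+ F₀),
    ∀ g : G, ∃ (a : F₀) (σ : F₀ ≃+* F₀), ∀ v : V, e (ρ g v) = a * σ (e v)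

/-- semilinear over a field in `Type` (first alternative of S3361) -/
def Semi0 {q : ℕ} [Fact q.Prime] {V : Type u} [AddCommGroup V] [Module (ZMod q) V]
    {G : Type v} [Group G] (ρ : G →* (V ≃ₗ[ZMod q] V)) : Prop :=
  ∃ (F : Type) (_ : Field F) (_ : Fintype F) (e : V ≃+ F),
    ∀ g : G, ∃ (a : F) (σ : F ≃+* F), ∀ v : V, e (ρ g v) = a * σ (e v)

/-! ### packages -/

/-- [LINFACTS] -/
def PkgLinFacts : Prop :=
  ∀ {q : ℕ} [Fact q.Prime] {V : Type u} [AddCommGroup V] [Module (ZMod q) V] [Finite V]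
    [Nontrivial V] {G : Type v} [Group G] [Finite G] (ρ : G →* (V ≃ₗ[ZMod q] V)), IsReg ρ →
    Nat.card G + 1 = Nat.card V ∧
    (∀ s t : G, orderOf s = 2 → orderOf t = 2 → s = t) ∧ (q ≠ 2 → 2 ∣ Nat.card G)

/-- [SEMIU] -/
def PkgSemiU : Prop :=
  ∀ {q : ℕ} [Fact q.Prime] {V : Type u} [AddCommGroup V] [Module (ZMod q) V] [Finite V]
    [Nontrivial V] {G : Type v} [Group G] [Finite G] (ρ : G →* (V ≃ₗ[ZMod q] V)), IsReg ρ →
    ∀ A : Subgroup G, A.Normal → IsCyclic A → Irr ρ A → SemiU ρ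

/-- [SEMID] -/
def PkgSemiD : Prop :=
  ∀ {q : ℕ} [Fact q.Prime] {V : Type u} [AddCommGroup V] [Module (ZMod q) V] [Finite V]
    [Nontrivial V] {G : Type v} [Group G] (ρ : G →* (V ≃ₗ[ZMod q] V)), SemiU ρ → Semi0 ρ

/-- [SEMIM] -/
def PkgSemiM : Prop :=
  ∀ {q : ℕ} [Fact q.Prime] {V : Type u} [AddCommGroup V] [Module (ZMod q) V] [Finite V]
    [Nontrivial V] {G : Type v} [Group G] [Finite G] (ρ : G →* (V ≃ₗ[ZMod q] V)), IsReg ρ →
    ∀ A : Subgroup G, A.Normal → IsCyclic A → Irr ρ A →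
    ∃ C : Subgroup G, C.Normal ∧ IsCyclic C ∧ ∀ x y : G, x * y * x⁻¹ * y⁻¹ ∈ C

/-- [META2] -/
def PkgMeta2 : Prop :=
  ∀ {G : Type v} [Group G] [Finite G], 2 ∣ Nat.card G → ∀ C : Subgroup G, C.Normal →
    IsCyclic C → (∀ x y : G, x * y * x⁻¹ * y⁻¹ ∈ C) → HasIdx2N G

/-- [BRIDGE] -/
def PkgBridge : Prop :=
  ∀ {q : ℕ} [Fact q.Prime] {V : Type u} [AddCommGroup V] [Module (ZMod q) V] [Finite V]
    [Nontrivial V] {G : Type v} [Group G] [Finite G] (ρ : G →* (V ≃ₗ[ZMod q] V)), IsReg ρ →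
    Group.IsSolvable G → (¬ ∃ A : Subgroup G, A.Normal ∧ IsCyclic A ∧ Irr ρ A) →
    Nat.card V ∈ ({25, 49, 121, 529} : Set ℕ)

/-- [ODDQ] -/
def PkgOddQ : Prop :=
  ∀ {G : Type v} [Group G] [Finite G], ∃ (O : Subgroup G) (_ : O.Normal),
    Odd (Nat.card O) ∧ OddCoreFree (G ⧸ O)

/-- [SYLQ] -/
def PkgSylQ : Prop :=
  ∀ {G : Type v} [Group G] [Finite G] (O : Subgroup G) [O.Normal], Odd (Nat.card O) →
    ∀ P : Sylow 2 G, ∃ P' : Sylow 2 (G ⧸ O), Nonempty (P ≃* P')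

/-- [HH] -/
def PkgHH : Prop :=
  ∀ {X : Type v} [Group X] [Finite X], Group.IsSolvable X → OddCoreFree X →
    ∃ T : Subgroup X, T.Normal ∧ IsPGroup 2 T ∧ Subgroup.centralizer (T : Set X) ≤ T

/-- [CORE16] -/
def PkgCore16 : Prop :=
  ∀ {X : Type v} [Group X] [Finite X], Group.IsSolvable X → OddCoreFree X →
    (∃ P : Sylow 2 X, Nonempty (P ≃* QuaternionGroup 4)) → HasIdx2N X

/-- [CORE8] -/
def PkgCore8 : Prop :=
  ∀ {X : Type v} [Group X] [Finite X], Group.IsSolvable X → OddCoreFree X →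
    (∃ P : Sylow 2 X, Nonempty (P ≃* QuaternionGroup 2)) → Nat.card X ∣ 120 →
    HasIdx2N X ∨
      (Nat.card X = 24 ∧ Nonempty (X ≃* Matrix.SpecialLinearGroup (Fin 2) (ZMod 3)))

/-- [SPLIT5] -/
def PkgSplit5 : Prop :=
  ∀ {G : Type v} [Group G] [Finite G], Nat.card G = 120 → ∀ (O : Subgroup G) [O.Normal],
    Nat.card O = 5 → Nonempty ((G ⧸ O) ≃* Matrix.SpecialLinearGroup (Fin 2) (ZMod 3)) →
    HasIdx2N G ∨
      Nonempty (G ≃* Matrix.SpecialLinearGroup (Fin 2) (ZMod 3) × Multiplicative (ZMod 5))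

/-- [EXC] -/
def PkgExc : Prop :=
  ∀ {G : Type v} [Group G] [Finite G], Group.IsSolvable G →
    (∀ s t : G, orderOf s = 2 → orderOf t = 2 → s = t) →
    (Nat.card G = 24 ∨ Nat.card G = 48 ∨ Nat.card G = 120 ∨ Nat.card G = 528) →
    HasIdx2N G ∨
      (Nat.card G = 24 ∧ Nonempty (G ≃* Matrix.SpecialLinearGroup (Fin 2) (ZMod 3))) ∨
      (Nat.card G = 120 ∧
        Nonempty (G ≃* Matrix.SpecialLinearGroup (Fin 2) (ZMod 3) × Multiplicative (ZMod 5)))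

end Cfsg.Agent.Lib.Helper49.HUP
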